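import Cfsg.Agent.Lib.Presentations.AltFinal
import Cfsg.Agent.Lib.Presentations.Bound

/-!
# The symmetric and alternating groups of degree at most four: two generators, few relators

And the passage from three generators to two for degree at least five.
-/

set_option autoImplicit false
set_option linter.unusedSectionVars false
set_option linter.unusedVariables false

namespace Cfsg.Agent.Lib.Presentations.AltSmall

open Equiv Equiv.Perm Subgroup
open Cfsg.Agent.Lib.Perm.IndexAlt
open Cfsg.Agent.Lib.Presentations.AltReal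
open Cfsg.Agent.Lib.Presentations.AltFinal
open Cfsg.Agent.Lib.Presentations.AltB (card_le_of_normalizes)

section Two

variable {G : Type*} [Group G]

/-- From three generators with two of them generating, to two generators with one more relator. -/
theorem two_of_three {rels : Finset (FreeGroup (Fin 3))}
    (E : PresentedGroup (↑rels : Set (FreeGroup (Fin 3))) ≃* G)
    (h : closure ({E (PresentedGroup.of 1), E (PresentedGroup.of 2)} : Set G) = ⊤) :
    ∃ rels' : Finset (FreeGroup (Fin 2)), rels'.card ≤ rels.card + 1 ∧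
      Nonempty (PresentedGroup (↑rels' : Set (FreeGroup (Fin 2))) ≃* G) := by
  classical
  set a : Fin 2 → G := ![E (PresentedGroup.of 1), E (PresentedGroup.of 2)] with ha
  have h1 : closure (Set.range a) = ⊤ := by
    rw [← h]
    congr 1
    simp [ha, Matrix.range_cons, Set.pair_comm]
  obtain ⟨w0, hw0⟩ := Tietze.exists_word h1 (E (PresentedGroup.of 0))
  let w : Fin 3 → FreeGroup (Fin 2) := ![w0, FreeGroup.of 0, FreeGroup.of 1]
  let A : Fin 2 → FreeGroup (Fin 3) := ![FreeGroup.of 1, FreeGroup.of 2]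
  have hw : ∀ i, FreeGroup.lift a (w i) = E (PresentedGroup.of i) := by
    intro i
    fin_cases i
    · exact hw0
    · simp [w, ha]
    · simp [w, ha]
  have hA : ∀ j, FreeGroup.lift (fun i => E (PresentedGroup.of i)) (A j) = a j := by
    intro j
    fin_cases j
    · simp [A, ha]
    · simp [A, ha]
  obtain ⟨rels', hc, E', -⟩ := Tietze.tietze E a w A hw hA
  refine ⟨rels', hc.trans ?_, ⟨E'⟩⟩
  gcongr
  have : (Finset.univ.image (fun j : Fin 2 => (FreeGroup.of j)⁻¹ * FreeGroup.lift w (A j))) ⊆
      {1} := by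
    intro z hz
    obtain ⟨j, -, rfl⟩ := Finset.mem_image.1 hz
    rw [Finset.mem_singleton]
    fin_cases j
    · simp [A, w]
    · simp [A, w]
  exact (Finset.card_le_card this).trans (by simp)

/-- From a list of relators in two letters and a bound on all models to an isomorphism. -/
theorem pres_of_bound {P : Type} [Group P] [Finite P] (rl : List (FreeGroup (Fin 2))) (hlen : rl.length ≤ 8)
    (γ : Fin 2 → P) (hrel : ∀ r ∈ rl, FreeGroup.lift γ r = 1)
    (hbound : ∀ (K : Type) [Group K] (φ : FreeGroup (Fin 2) →* K), Function.Surjective φ →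
      (∀ r ∈ rl, φ r = 1) → Finite K ∧ Nat.card K ≤ Nat.card (closure (Set.range γ))) :
    ∃ rels : Finset (FreeGroup (Fin 2)), rels.card ≤ 8 ∧
      Nonempty (PresentedGroup (↑rels : Set (FreeGroup (Fin 2))) ≃* closure (Set.range γ)) := by
  classical
  refine ⟨rl.toFinset, (List.toFinset_card_le _).trans hlen, ?_⟩
  have hmem : ∀ r, r ∈ (↑rl.toFinset : Set (FreeGroup (Fin 2))) ↔ r ∈ rl := by
    intro r
    simp
  obtain ⟨h1, h2⟩ := hbound (PresentedGroup (↑rl.toFinset : Set (FreeGroup (Fin 2))))
    (PresentedGroup.mk _) (PresentedGroup.mk_surjective _)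
    (fun r hr => PresentedGroup.one_of_mem ((hmem r).2 hr))
  have hrel' : ∀ r ∈ (↑rl.toFinset : Set (FreeGroup (Fin 2))), FreeGroup.lift γ r = 1 :=
    fun r hr => hrel r ((hmem r).1 hr)
  let φ : PresentedGroup (↑rl.toFinset : Set (FreeGroup (Fin 2))) →* P :=
    PresentedGroup.toGroup hrel'
  have hof : ∀ i, φ (PresentedGroup.of i) = γ i := fun i => by simp [φ]
  have hrange : φ.range = closure (Set.range γ) := by
    rw [MonoidHom.range_eq_map, ← PresentedGroup.closure_range_of
      (↑rl.toFinset : Set (FreeGroup (Fin 2))), MonoidHom.map_closure]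
    congr 1
    ext z
    constructor
    · rintro ⟨_, ⟨i, rfl⟩, rfl⟩
      exact ⟨i, (hof i).symm⟩
    · rintro ⟨i, rfl⟩
      exact ⟨_, ⟨i, rfl⟩, hof i⟩
  have hφinj : Function.Injective φ := by
    have hf : Function.Surjective φ.rangeRestrict := φ.rangeRestrict_surjective
    have hc' : Nat.card (PresentedGroup (↑rl.toFinset : Set (FreeGroup (Fin 2)))) ≤
        Nat.card φ.range := by
      rw [hrange]
      exact h2
    have hb := Function.Surjective.bijective_of_nat_card_le hf hc'
    intro a b hab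
    exact hb.1 (Subtype.ext hab)
  exact ⟨(MonoidHom.ofInjective hφinj).trans (MulEquiv.subgroupCongr hrange)⟩

lemma closure_of_surj {K : Type*} [Group K] {φ : FreeGroup (Fin 2) →* K}
    (hφ : Function.Surjective φ) :
    closure ({φ (FreeGroup.of 0), φ (FreeGroup.of 1)} : Set K) = ⊤ := by
  have h1 : (⊤ : Subgroup (FreeGroup (Fin 2))).map φ = ⊤ := by
    rw [← MonoidHom.range_eq_map, MonoidHom.range_eq_top]
    exact hφ
  rw [← FreeGroup.closure_range_of, MonoidHom.map_closure] at h1
  rw [← h1]
  congr 1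
  ext z
  simp only [Set.mem_insert_iff, Set.mem_singleton_iff, Set.mem_image, Set.mem_range,
    exists_exists_eq_and]
  constructor
  · rintro (rfl | rfl)
    · exact ⟨0, rfl⟩
    · exact ⟨1, rfl⟩
  · rintro ⟨i, rfl⟩
    fin_cases i
    · exact Or.inl rfl
    · exact Or.inr rfl

end Two

section Bounds

variable {K : Type*} [Group K]

lemma normalizes_of_gens {S : Set K} {V : K}
    (h : ∀ s ∈ S, V * s * V⁻¹ ∈ closure S ∧ V⁻¹ * s * V ∈ closure S) :
    ∀ m ∈ closure S, V * m * V⁻¹ ∈ closure S ∧ V⁻¹ * m * V ∈ closure S := by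
  intro m hm
  induction hm using closure_induction with
  | mem z hz => exact h z hz
  | one => simp [one_mem]
  | mul a b _ _ h1 h2 =>
    have e1 : V * (a * b) * V⁻¹ = (V * a * V⁻¹) * (V * b * V⁻¹) := by group
    have e2 : V⁻¹ * (a * b) * V = (V⁻¹ * a * V) * (V⁻¹ * b * V) := by group
    rw [e1, e2]
    exact ⟨mul_mem h1.1 h2.1, mul_mem h1.2 h2.2⟩
  | inv a _ h' =>
    have e1 : V * a⁻¹ * V⁻¹ = (V * a * V⁻¹)⁻¹ := by group
    have e2 : V⁻¹ * a⁻¹ * V = (V⁻¹ * a * V)⁻¹ := by group
    rw [e1, e2]
    exact ⟨inv_mem h'.1, inv_mem h'.2⟩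

/-- `⟨x | x³⟩`. -/
lemma bound_one {x : K} (h3 : x ^ 3 = 1) :
    Finite (closure (Set.range (![x] : Fin 1 → K))) ∧
      2 * Nat.card (closure (Set.range (![x] : Fin 1 → K))) ≤ 6 := by
  have := Carmichael.carmichael (![x] : Fin 1 → K) (by
    intro i; fin_cases i; simpa using h3) (by
    intro i j hij; exact absurd (Subsingleton.elim i j) hij)
  simpa [Nat.factorial] using this

/-- `⟨x, y | x³, y³, (xy)²⟩`. -/
lemma bound_two {x y : K} (h3 : x ^ 3 = 1) (h4 : y ^ 3 = 1) (h5 : (x * y) ^ 2 = 1) :
    Finite (closure (Set.range (![x, y] : Fin 2 → K))) ∧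
      2 * Nat.card (closure (Set.range (![x, y] : Fin 2 → K))) ≤ 24 := by
  have h6 : (y * x) ^ 2 = 1 := by
    calc (y * x) ^ 2 = y * (x * y) ^ 2 * y⁻¹ := by simp only [pow_two]; group
      _ = 1 := by rw [h5]; group
  have := Carmichael.carmichael (![x, y] : Fin 2 → K) (by
    intro i; fin_cases i
    · simpa using h3
    · simpa using h4) (by
    intro i j hij
    fin_cases i <;> fin_cases j
    · exact absurd rfl hij
    · simpa using h5
    · simpa using h6
    · exact absurd rfl hij)
  simpa [Nat.factorial] using this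

end Bounds

section Real

lemma V0_mem_one_eq : (V0 1 : Perm (Om 1)) = 1 := by
  have : (Equiv.addRight (1 : ZMod 1) : Perm (ZMod 1)) = 1 := by
    ext a
    exact Subsingleton.elim _ _
  rw [V0, this]
  exact map_one sc

lemma tri_one_eq (a : ZMod 1) : tri a = tri (0 : ZMod 1) := by
  rw [Subsingleton.elim a 0]

lemma card_Om (N : ℕ) [NeZero N] : Nat.card (Om N) = N + 2 := by
  rw [Nat.card_eq_fintype_card]
  simp [Fintype.card_sum, ZMod.card]

lemma hnt (N : ℕ) [NeZero N] : Nontrivial (Om N) := ⟨⟨pu, pv, pu_ne_pv⟩⟩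

/-- `A₃`. -/
theorem alt_three : ∃ rels : Finset (FreeGroup (Fin 2)), rels.card ≤ 8 ∧
    Nonempty (PresentedGroup (↑rels : Set (FreeGroup (Fin 2))) ≃* alternatingGroup (Om 1)) := by
  have h := hnt 1
  set γ : Fin 2 → Perm (Om 1) := ![tri (0 : ZMod 1), 1] with hγ
  have hcl : closure (Set.range γ) = alternatingGroup (Om 1) := by
    apply closure_eq_alt (β := 1) beta_one (by rw [V0_mem_one_eq, map_one])
    · rintro _ ⟨i, rfl⟩
      fin_cases i
      · exact tri_mem_alt _
      · exact one_mem _
    · exact ⟨0, rfl⟩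
    · rw [V0_mem_one_eq]
      exact ⟨1, rfl⟩
  obtain ⟨rels, hc, ⟨E⟩⟩ := pres_of_bound [(FreeGroup.of 0) ^ 3, FreeGroup.of 1] (by simp) γ (by
    intro r hr
    simp only [List.mem_cons, List.not_mem_nil, or_false] at hr
    rcases hr with rfl | rfl
    · simp [hγ, tri_cube]
    · simp [hγ]) (by
    intro K _ φ hφ hr
    have h1 : (φ (FreeGroup.of 0)) ^ 3 = 1 := by
      have h := hr ((FreeGroup.of 0) ^ 3) (by simp)
      simp only [map_pow] at h
      exact h
    have h2 : φ (FreeGroup.of 1) = 1 := hr _ (by simp)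
    have h3 := closure_of_surj hφ
    have h4 := bound_one h1
    have h5 : closure (Set.range (![φ (FreeGroup.of 0)] : Fin 1 → K)) = ⊤ := by
      rw [← h3, h2]
      apply le_antisymm
      · rw [closure_le]
        rintro _ ⟨i, rfl⟩
        fin_cases i
        exact Subgroup.subset_closure (by simp)
      · rw [closure_le]
        rintro z hz
        rcases hz with rfl | hz
        · exact Subgroup.subset_closure ⟨0, rfl⟩
        · rw [Set.mem_singleton_iff] at hz
          rw [hz]
          exact one_mem _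
    rw [h5, Subgroup.card_top] at h4
    have h6 : Finite K := by
      have := h4.1
      exact Finite.of_equiv _ Subgroup.topEquiv.toEquiv
    refine ⟨h6, ?_⟩
    rw [hcl]
    have h7 := two_mul_nat_card_alternatingGroup (α := Om 1)
    rw [Nat.card_perm, card_Om] at h7
    simp only [Nat.factorial] at h7
    omega)
  exact ⟨rels, hc, ⟨E.trans (MulEquiv.subgroupCongr hcl)⟩⟩

/-- `A₄`. -/
theorem alt_four : ∃ rels : Finset (FreeGroup (Fin 2)), rels.card ≤ 8 ∧
    Nonempty (PresentedGroup (↑rels : Set (FreeGroup (Fin 2))) ≃* alternatingGroup (Om 2)) := by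
  have h := hnt 2
  set γ : Fin 2 → Perm (Om 2) := ![tri (0 : ZMod 2), tri (1 : ZMod 2)] with hγ
  have hcl : closure (Set.range γ) = alternatingGroup (Om 2) := by
    apply le_antisymm
    · rw [closure_le]
      rintro _ ⟨i, rfl⟩
      fin_cases i
      · exact tri_mem_alt _
      · exact tri_mem_alt _
    · have clq : IsClique (closure (Set.range γ)) (DD 2 2) := by
        apply clique_DD
        intro j hj
        interval_cases j
        · exact Subgroup.subset_closure ⟨0, by simp [hγ]⟩
        · exact Subgroup.subset_closure ⟨1, by simp [hγ]⟩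
      intro σ hσ
      apply mem_of_support clq (mem_alternatingGroup.1 hσ)
      intro z hz
      obtain ⟨k, -, hk⟩ := notMem_DD hz
      exact absurd (ZMod.val_lt k) (by omega)
  obtain ⟨rels, hc, ⟨E⟩⟩ := pres_of_bound [(FreeGroup.of 0) ^ 3, (FreeGroup.of 1) ^ 3,
      (FreeGroup.of 0 * FreeGroup.of 1) ^ 2] (by simp) γ (by
    intro r hr
    simp only [List.mem_cons, List.not_mem_nil, or_false] at hr
    rcases hr with rfl | rfl | rfl
    · simp [hγ, tri_cube]
    · simp [hγ, tri_cube]
    · simp only [map_pow, map_mul, FreeGroup.lift_apply_of, hγ]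
      exact tri_pair (by decide)) (by
    intro K _ φ hφ hr
    have h1 : (φ (FreeGroup.of 0)) ^ 3 = 1 := by
      have h := hr ((FreeGroup.of 0) ^ 3) (by simp)
      simp only [map_pow] at h
      exact h
    have h2 : (φ (FreeGroup.of 1)) ^ 3 = 1 := by
      have h := hr ((FreeGroup.of 1) ^ 3) (by simp)
      simp only [map_pow] at h
      exact h
    have h2' : (φ (FreeGroup.of 0) * φ (FreeGroup.of 1)) ^ 2 = 1 := by
      have h := hr ((FreeGroup.of 0 * FreeGroup.of 1) ^ 2) (by simp)
      simp only [map_pow, map_mul] at h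
      exact h
    have h3 := closure_of_surj hφ
    have h4 := bound_two h1 h2 h2'
    have h5 : closure (Set.range (![φ (FreeGroup.of 0), φ (FreeGroup.of 1)] : Fin 2 → K)) = ⊤ := by
      rw [← h3]
      congr 1
      simp [Matrix.range_cons, Set.pair_comm]
    rw [h5, Subgroup.card_top] at h4
    have h6 : Finite K := by
      have := h4.1
      exact Finite.of_equiv _ Subgroup.topEquiv.toEquiv
    refine ⟨h6, ?_⟩
    rw [hcl]
    have h7 := two_mul_nat_card_alternatingGroup (α := Om 2)
    rw [Nat.card_perm, card_Om] at h7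
    simp only [Nat.factorial] at h7
    omega)
  exact ⟨rels, hc, ⟨E.trans (MulEquiv.subgroupCongr hcl)⟩⟩

/-- `S₃`. -/
theorem sym_three : ∃ rels : Finset (FreeGroup (Fin 2)), rels.card ≤ 8 ∧
    Nonempty (PresentedGroup (↑rels : Set (FreeGroup (Fin 2))) ≃* Perm (Om 1)) := by
  set γ : Fin 2 → Perm (Om 1) := ![tri (0 : ZMod 1), V0 tw] with hγ
  have hsV : sign (V0 tw : Perm (Om 1)) = -1 := by
    rw [sign_V0, sign_tw]
    simp
  have hcl : closure (Set.range γ) = ⊤ :=
    closure_eq_top beta_tw hsV _ ⟨0, rfl⟩ ⟨1, rfl⟩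
  have hV2 : (V0 tw : Perm (Om 1)) ^ 2 = 1 := by
    have : (Equiv.addRight (1 : ZMod 1) : Perm (ZMod 1)) = 1 := by
      ext a
      exact Subsingleton.elim _ _
    rw [V0, this, ← map_pow, Prod.pow_mk, one_pow, tw, pow_two, swap_mul_self]
    exact map_one sc
  have hconj : (V0 tw : Perm (Om 1)) * tri (0 : ZMod 1) * (V0 tw)⁻¹ = (tri (0 : ZMod 1))⁻¹ := by
    have := V0_conj (N := 1) beta_tw 0
    simpa [tri_one_eq] using this
  obtain ⟨rels, hc, ⟨E⟩⟩ := pres_of_bound [(FreeGroup.of 0) ^ 3, (FreeGroup.of 1) ^ 2,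
      FreeGroup.of 1 * FreeGroup.of 0 * (FreeGroup.of 1)⁻¹ * FreeGroup.of 0] (by simp) γ (by
    intro r hr
    simp only [List.mem_cons, List.not_mem_nil, or_false] at hr
    rcases hr with rfl | rfl | rfl
    · simp [hγ, tri_cube]
    · simp [hγ, hV2]
    · simp only [map_mul, map_inv, FreeGroup.lift_apply_of, hγ]
      simp only [Matrix.cons_val_zero, Matrix.cons_val_one]
      rw [hconj, inv_mul_cancel]) (by
    intro K _ φ hφ hr
    set x := φ (FreeGroup.of 0) with hx
    set y := φ (FreeGroup.of 1) with hy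
    have h1 : x ^ 3 = 1 := by
      have h := hr ((FreeGroup.of 0) ^ 3) (by simp)
      simp only [map_pow] at h
      exact h
    have h2 : y ^ 2 = 1 := by
      have h := hr ((FreeGroup.of 1) ^ 2) (by simp)
      simp only [map_pow] at h
      exact h
    have h3 : y * x * y⁻¹ * x = 1 := by
      have h := hr (FreeGroup.of 1 * FreeGroup.of 0 * (FreeGroup.of 1)⁻¹ * FreeGroup.of 0) (by simp)
      simp only [map_mul, map_inv] at h
      exact h
    have hygen := closure_of_surj hφ
    have h4 := bound_one h1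
    have h5 : y * x * y⁻¹ = x⁻¹ := eq_inv_of_mul_eq_one_left h3
    have hyinv : y⁻¹ = y := by
      rw [inv_eq_iff_mul_eq_one, ← pow_two, h2]
    have hgen' : closure (insert y (Set.range (![x] : Fin 1 → K))) = ⊤ := by
      rw [← hygen]
      congr 1
      simp [Set.pair_comm]
      rfl
    have hN := normalizes_of_gens (S := Set.range (![x] : Fin 1 → K)) (V := y) (by
      rintro _ ⟨i, rfl⟩
      fin_cases i
      simp only [Fin.zero_eta, Matrix.cons_val_zero]
      have e1 : x ∈ closure (Set.range (![x] : Fin 1 → K)) :=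
        Subgroup.subset_closure ⟨0, rfl⟩
      refine ⟨?_, ?_⟩
      · rw [h5]
        exact inv_mem e1
      · have e2 : y⁻¹ * x * y = y * x * y⁻¹ := by rw [hyinv]
        rw [e2, h5]
        exact inv_mem e1)
    have : Finite (closure (Set.range (![x] : Fin 1 → K))) := h4.1
    have h6 := card_le_of_normalizes (P := closure (Set.range (![x] : Fin 1 → K))) (V := y) (e := 2)
      (by omega) hN (by rw [h2]; exact one_mem _) _ Subgroup.subset_closure hgen'
    refine ⟨h6.1, ?_⟩
    rw [hcl, Subgroup.card_top, Nat.card_perm, card_Om]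
    have := h4.2
    have h7 := h6.2
    simp only [Nat.factorial]
    omega)
  exact ⟨rels, hc, ⟨E.trans ((MulEquiv.subgroupCongr hcl).trans Subgroup.topEquiv)⟩⟩

/-- `S₄`. -/
theorem sym_four : ∃ rels : Finset (FreeGroup (Fin 2)), rels.card ≤ 8 ∧
    Nonempty (PresentedGroup (↑rels : Set (FreeGroup (Fin 2))) ≃* Perm (Om 2)) := by
  set γ : Fin 2 → Perm (Om 2) := ![tri (0 : ZMod 2), V0 1] with hγ
  have hsV : sign (V0 1 : Perm (Om 2)) = -1 := by
    rw [sign_V0, map_one]
    simp
  have hcl : closure (Set.range γ) = ⊤ :=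
    closure_eq_top beta_one hsV _ ⟨0, rfl⟩ ⟨1, rfl⟩
  have hV2 : (V0 1 : Perm (Om 2)) ^ 2 = 1 := by
    rw [V0, ← map_pow, Prod.pow_mk, addRight_pow_self, one_pow]
    exact map_one sc
  have hconj : (V0 1 : Perm (Om 2)) * tri (0 : ZMod 2) * (V0 1)⁻¹ = tri (1 : ZMod 2) := by
    have := V0_conj (N := 2) beta_one 0
    simpa using this
  obtain ⟨rels, hc, ⟨E⟩⟩ := pres_of_bound [(FreeGroup.of 0) ^ 3, (FreeGroup.of 1) ^ 2,
      (FreeGroup.of 0 * (FreeGroup.of 1 * FreeGroup.of 0 * (FreeGroup.of 1)⁻¹)) ^ 2] (by simp) γ (by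
    intro r hr
    simp only [List.mem_cons, List.not_mem_nil, or_false] at hr
    rcases hr with rfl | rfl | rfl
    · simp [hγ, tri_cube]
    · simp [hγ, hV2]
    · simp only [map_pow, map_mul, map_inv, FreeGroup.lift_apply_of, hγ]
      simp only [Matrix.cons_val_zero, Matrix.cons_val_one]
      rw [hconj]
      exact tri_pair (by decide)) (by
    intro K _ φ hφ hr
    set x := φ (FreeGroup.of 0) with hx
    set y := φ (FreeGroup.of 1) with hy
    have h1 : x ^ 3 = 1 := by
      have h := hr ((FreeGroup.of 0) ^ 3) (by simp)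
      simp only [map_pow] at h
      exact h
    have h2 : y ^ 2 = 1 := by
      have h := hr ((FreeGroup.of 1) ^ 2) (by simp)
      simp only [map_pow] at h
      exact h
    have h3 : (x * (y * x * y⁻¹)) ^ 2 = 1 := by
      have h := hr ((FreeGroup.of 0 * (FreeGroup.of 1 * FreeGroup.of 0 * (FreeGroup.of 1)⁻¹)) ^ 2) (by simp)
      simp only [map_pow, map_mul, map_inv] at h
      exact h
    have hygen := closure_of_surj hφ
    have h1' : (y * x * y⁻¹) ^ 3 = 1 := by
      rw [conj_pow, h1]; group
    have h4 := bound_two h1 h1' h3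
    have hyinv : y⁻¹ = y := by
      rw [inv_eq_iff_mul_eq_one, ← pow_two, h2]
    set S : Set K := Set.range (![x, y * x * y⁻¹] : Fin 2 → K) with hS
    have hxS : x ∈ S := ⟨0, rfl⟩
    have hyS : y * x * y⁻¹ ∈ S := ⟨1, rfl⟩
    have hgen' : closure (insert y S) = ⊤ := by
      rw [eq_top_iff, ← hygen, closure_le]
      intro z hz
      rcases hz with rfl | hz
      · exact Subgroup.subset_closure (Or.inr hxS)
      · rw [Set.mem_singleton_iff] at hz
        rw [hz]
        exact Subgroup.subset_closure (Or.inl rfl)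
    have hinvy : ∀ z : K, y⁻¹ * z * y = y * z * y⁻¹ := by
      intro z
      rw [hyinv]
    have hxx : y * (y * x * y⁻¹) * y⁻¹ = x := by
      calc y * (y * x * y⁻¹) * y⁻¹ = y ^ 2 * x * (y ^ 2)⁻¹ := by simp only [pow_two]; group
        _ = x := by rw [h2]; group
    have hN := normalizes_of_gens (S := S) (V := y) (by
      rintro _ ⟨i, rfl⟩
      fin_cases i
      · simp only [Fin.zero_eta, Matrix.cons_val_zero]
        rw [hinvy]
        exact ⟨Subgroup.subset_closure hyS, Subgroup.subset_closure hyS⟩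
      · simp only [Fin.mk_one, Matrix.cons_val_one, Matrix.cons_val_zero]
        rw [hinvy, hxx]
        exact ⟨Subgroup.subset_closure hxS, Subgroup.subset_closure hxS⟩)
    have : Finite (closure S) := h4.1
    have h6 := card_le_of_normalizes (P := closure S) (V := y) (e := 2)
      (by omega) hN (by rw [h2]; exact one_mem _) _ Subgroup.subset_closure hgen'
    refine ⟨h6.1, ?_⟩
    rw [hcl, Subgroup.card_top, Nat.card_perm, card_Om]
    have := h4.2
    have h7 := h6.2
    simp only [Nat.factorial]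
    omega)
  exact ⟨rels, hc, ⟨E.trans ((MulEquiv.subgroupCongr hcl).trans Subgroup.topEquiv)⟩⟩

/-- `S₂`. -/
theorem sym_two : ∃ rels : Finset (FreeGroup (Fin 2)), rels.card ≤ 8 ∧
    Nonempty (PresentedGroup (↑rels : Set (FreeGroup (Fin 2))) ≃* Perm (Fin 2)) := by
  set γ : Fin 2 → Perm (Fin 2) := ![swap 0 1, 1] with hγ
  have hcl : closure (Set.range γ) = ⊤ := by
    rw [eq_top_iff]
    intro σ _
    have key : ∀ σ : Perm (Fin 2), σ = 1 ∨ σ = swap 0 1 := by decide
    rcases key σ with rfl | rfl
    · exact one_mem _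
    · exact Subgroup.subset_closure ⟨0, rfl⟩
  obtain ⟨rels, hc, ⟨E⟩⟩ := pres_of_bound [(FreeGroup.of 0) ^ 2, FreeGroup.of 1] (by simp) γ (by
    intro r hr
    simp only [List.mem_cons, List.not_mem_nil, or_false] at hr
    rcases hr with rfl | rfl
    · simp [hγ, pow_two]
    · simp [hγ]) (by
    intro K _ φ hφ hr
    set x := φ (FreeGroup.of 0) with hx
    have h1 : x ^ 2 = 1 := by
      have h := hr ((FreeGroup.of 0) ^ 2) (by simp)
      simp only [map_pow] at h
      exact h
    have h2 : φ (FreeGroup.of 1) = 1 := hr _ (by simp)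
    have hygen := closure_of_surj hφ
    rw [h2] at hygen
    have hgen' : closure (insert x (∅ : Set K)) = ⊤ := by
      rw [eq_top_iff, ← hygen, closure_le]
      intro z hz
      rcases hz with rfl | hz
      · exact Subgroup.subset_closure (Or.inl rfl)
      · rw [Set.mem_singleton_iff] at hz
        rw [hz]
        exact one_mem _
    have : Finite (⊥ : Subgroup K) := inferInstance
    have h6 := card_le_of_normalizes (P := (⊥ : Subgroup K)) (V := x) (e := 2) (by omega)
      (by
        intro m hm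
        rw [Subgroup.mem_bot] at hm
        subst hm
        simp [one_mem]) (by rw [h1]; exact one_mem _) ∅ (by simp) hgen'
    refine ⟨h6.1, ?_⟩
    rw [hcl, Subgroup.card_top, Nat.card_perm]
    have h7 := h6.2
    simpa [Nat.factorial] using h7)
  exact ⟨rels, hc, ⟨E.trans ((MulEquiv.subgroupCongr hcl).trans Subgroup.topEquiv)⟩⟩

/-- Trivial groups. -/
theorem triv (G : Type) [Group G] [Subsingleton G] : ∃ rels : Finset (FreeGroup (Fin 2)),
    rels.card ≤ 8 ∧ Nonempty (PresentedGroup (↑rels : Set (FreeGroup (Fin 2))) ≃* G) := by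
  set γ : Fin 2 → G := fun _ => 1 with hγ
  have hcl : closure (Set.range γ) = ⊤ := by
    rw [eq_top_iff]
    intro σ _
    rw [Subsingleton.elim σ 1]
    exact one_mem _
  have hfinG : Finite G := inferInstance
  obtain ⟨rels, hc, ⟨E⟩⟩ := pres_of_bound [FreeGroup.of 0, FreeGroup.of 1] (by simp) γ (by
    intro r hr
    simp only [List.mem_cons, List.not_mem_nil, or_false] at hr
    rcases hr with rfl | rfl
    · simp [hγ]
    · simp [hγ]) (by
    intro K _ φ hφ hr
    have h1 : φ (FreeGroup.of 0) = 1 := hr _ (by simp)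
    have h2 : φ (FreeGroup.of 1) = 1 := hr _ (by simp)
    have hygen := closure_of_surj hφ
    rw [h1, h2] at hygen
    have hK : Subsingleton K := by
      constructor
      have hall : ∀ z : K, z = 1 := by
        intro z
        have hz : z ∈ closure ({1, 1} : Set K) := by rw [hygen]; trivial
        simpa [Subgroup.closure_singleton_one] using hz
      intro a b
      rw [hall a, hall b]
    refine ⟨inferInstance, ?_⟩
    rw [hcl, Subgroup.card_top, Nat.card_of_subsingleton (1 : K), Nat.card_of_subsingleton (1 : G)])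
  exact ⟨rels, hc, ⟨E.trans ((MulEquiv.subgroupCongr hcl).trans Subgroup.topEquiv)⟩⟩

end Real

section Final

/-- Degree at most four. -/
theorem small (n : ℕ) (hn : n < 5) :
    (∃ rels : Finset (FreeGroup (Fin 2)), rels.card ≤ 8 ∧
      Nonempty (PresentedGroup (↑rels : Set (FreeGroup (Fin 2))) ≃* Perm (Fin n))) ∧
    (∃ rels : Finset (FreeGroup (Fin 2)), rels.card ≤ 8 ∧
      Nonempty (PresentedGroup (↑rels : Set (FreeGroup (Fin 2))) ≃* alternatingGroup (Fin n))) := by
  interval_cases n
  · exact ⟨triv _, triv _⟩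
  · exact ⟨triv _, triv _⟩
  · refine ⟨sym_two, ?_⟩
    have : Subsingleton (alternatingGroup (Fin 2)) := by
      have h7 := two_mul_nat_card_alternatingGroup (α := Fin 2)
      rw [Nat.card_perm] at h7
      simp only [Nat.card_eq_fintype_card, Fintype.card_fin, Nat.factorial] at h7
      have h8 : Fintype.card (alternatingGroup (Fin 2)) = 1 := by omega
      exact Fintype.card_le_one_iff_subsingleton.1 (by omega)
    exact triv _
  · obtain ⟨r1, h1, ⟨E1⟩⟩ := sym_three
    obtain ⟨r2, h2, ⟨E2⟩⟩ := alt_three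
    exact ⟨⟨r1, h1, ⟨E1.trans (omEquiv 1).permCongrHom⟩⟩, ⟨r2, h2, ⟨E2.trans (omEquiv 1).altCongrHom⟩⟩⟩
  · obtain ⟨r1, h1, ⟨E1⟩⟩ := sym_four
    obtain ⟨r2, h2, ⟨E2⟩⟩ := alt_four
    exact ⟨⟨r1, h1, ⟨E1.trans (omEquiv 2).permCongrHom⟩⟩, ⟨r2, h2, ⟨E2.trans (omEquiv 2).altCongrHom⟩⟩⟩

end Final

end Cfsg.Agent.Lib.Presentations.AltSmall
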